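import Cfsg.Agent.PronormalPSL.Even
import Cfsg.Agent.FusionClassical.Unitary

/-!
In characteristic two every subgroup of odd index of `SU_n(q)` is pronormal: an overgroup of the
unitriangular group is normalised by the triangular group. This uses the normal form of the Bruhat
decomposition of the general linear group, which is respected by the unitary involution.
-/

set_option autoImplicit false
set_option linter.style.haveILetI false
set_option linter.unusedSectionVars false

namespace Cfsg.Agent.PronormalPSU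

open Matrix
open Cfsg.Agent.PronormalPSL (utriGL diagGL diagGL_val diagGL_mem diagGL_mul_permGL diagHom
  mem_utriGL conj_mem_utriGL comm_mem_utriGL)
open Cfsg.Agent.FusionPSL (utri)
open Cfsg.Agent.UnipGL (permGL permGL_apply)

/-- An overgroup of a Sylow subgroup `S` is normalised by the normalizer of `S`, given a
triangular decomposition. -/
theorem normalizer_le_normalizer_of_decomposition {G : Type*} [Group G] [Finite G] {p : ℕ}
    [Fact p.Prime] (S : Sylow p G) (B : Subgroup G)
    (hNB : Subgroup.normalizer ((S : Subgroup G) : Set G) ≤ B)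
    (hBN : ∀ b ∈ B, ∀ s ∈ (S : Subgroup G), b * s * b⁻¹ ∈ (S : Subgroup G))
    (hcomm : ∀ b ∈ B, ∀ c ∈ B, b * c * b⁻¹ * c⁻¹ ∈ (S : Subgroup G))
    (hdec : ∀ b ∈ B, ∀ h : G, ∃ u ∈ (S : Subgroup G), ∃ e ∈ B, b * h = u * h * e)
    {H : Subgroup G} (hSH : (S : Subgroup G) ≤ H) :
    Subgroup.normalizer ((S : Subgroup G) : Set G) ≤ Subgroup.normalizer (H : Set G) := by
  intro b hb
  have hbB := hNB hb
  let K : Subgroup G := Subgroup.closure {x | ∃ h ∈ H, ∃ u ∈ (S : Subgroup G), x = h * u * h⁻¹}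
  have hKH : K ≤ H := (Subgroup.closure_le H).2 (by
    rintro _ ⟨h, hh, u, hu, rfl⟩
    exact mul_mem (mul_mem hh (hSH hu)) (inv_mem hh))
  have hK : ∀ x ∈ K, b * x * b⁻¹ ∈ H := by
    intro x hx
    induction hx using Subgroup.closure_induction with
    | mem x hx =>
      obtain ⟨h, hh, u, hu, rfl⟩ := hx
      obtain ⟨u₀, hu₀, e, he, hbe⟩ := hdec b hbB h
      rw [show b * (h * u * h⁻¹) * b⁻¹ = (b * h) * u * (b * h)⁻¹ by group, hbe,
        show u₀ * h * e * u * (u₀ * h * e)⁻¹ = u₀ * (h * (e * u * e⁻¹) * h⁻¹) * u₀⁻¹ by group]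
      exact mul_mem (mul_mem (hSH hu₀) (mul_mem (mul_mem hh (hSH (hBN e he u hu))) (inv_mem hh)))
        (inv_mem (hSH hu₀))
    | one => simp
    | mul x y _ _ hx hy => simpa [mul_assoc] using mul_mem hx hy
    | inv x _ hx => simpa [mul_assoc] using inv_mem hx
  refine Subgroup.mem_normalizer_fintype fun h hh => ?_
  obtain ⟨k, hk, hkS⟩ := Known.exists_mem_smul_sylow_eq S h K
    (fun u hu => Subgroup.subset_closure ⟨1, one_mem H, u, hu, by simp⟩) (by
      rw [Sylow.coe_subgroup_smul]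
      rintro _ ⟨u, hu, rfl⟩
      exact Subgroup.subset_closure ⟨h, hh, u, hu, rfl⟩)
  have hn : k⁻¹ * h ∈ Subgroup.normalizer ((S : Subgroup G) : Set G) :=
    Sylow.smul_eq_iff_mem_normalizer.mp (by rw [mul_smul, ← hkS, inv_smul_smul])
  rw [show b * h * b⁻¹ =
    (b * k * b⁻¹) * ((b * (k⁻¹ * h) * b⁻¹ * (k⁻¹ * h)⁻¹) * (k⁻¹ * h)) by group]
  exact mul_mem (hK k hk)
    (mul_mem (hSH (hcomm b hbB _ (hNB hn))) (mul_mem (inv_mem (hKH hk)) hh))

variable {n : ℕ} {F : Type*} [Field F] [Fintype F]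

local notation "GLn" => GL (Fin n) F
local notation "Mat" => Matrix (Fin n) (Fin n) F
local notation "B" => Cfsg.upperTriangularGL n F

/-- Lower triangular invertible matrices. -/
def lowTri : Subgroup GLn where
  carrier := {g | (g : Mat).BlockTriangular OrderDual.toDual}
  mul_mem' := fun {a} {b} ha hb => by
    change ((a : Mat) * (b : Mat)).BlockTriangular OrderDual.toDual
    exact Matrix.BlockTriangular.mul ha hb
  one_mem' := by
    change (1 : Mat).BlockTriangular OrderDual.toDual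
    exact Matrix.blockTriangular_one
  inv_mem' := fun {a} ha => by
    change ((a⁻¹ : GLn) : Mat).BlockTriangular OrderDual.toDual
    have : Invertible (a : Mat) := a.invertible
    rw [Matrix.coe_units_inv]
    exact Matrix.blockTriangular_inv_of_blockTriangular ha

theorem mem_lowTri {g : GLn} :
    g ∈ (lowTri : Subgroup GLn) ↔ ∀ i j, i < j → (g : Mat) i j = 0 := Iff.rfl

theorem mem_upper {g : GLn} : g ∈ B ↔ ∀ i j, j < i → (g : Mat) i j = 0 := Iff.rfl

theorem permGL_conj_apply (w : Equiv.Perm (Fin n)) (x : GLn) (i j : Fin n) :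
    (((permGL w)⁻¹ * x * permGL w : GLn) : Mat) i j = (x : Mat) (w i) (w j) := by
  have h : ((x * permGL w : GLn) : Mat) = ((permGL w * ((permGL w)⁻¹ * x * permGL w) : GLn) : Mat) := by
    congr 1; group
  have h' := congrFun (congrFun h (w i)) j
  rw [Units.val_mul, Units.val_mul, Matrix.mul_apply, Matrix.mul_apply,
    Finset.sum_eq_single (w j), Finset.sum_eq_single i] at h'
  · rw [permGL_apply, permGL_apply, if_pos rfl, if_pos rfl, mul_one, one_mul] at h'
    exact h'.symm
  · intro k _ hk; rw [permGL_apply, if_neg (fun e => hk (w.injective e).symm), zero_mul]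
  · simp
  · intro k _ hk; rw [permGL_apply, if_neg hk, mul_zero]
  · simp

theorem diag_of_utriGL {u : GLn} (hu : u ∈ (utriGL : Subgroup GLn)) (i : Fin n) : (u : Mat) i i = 1 := by
  obtain ⟨h, h1⟩ := mem_utriGL.1 hu
  exact congrFun h1 i

theorem upper_of_utriGL {u : GLn} (hu : u ∈ (utriGL : Subgroup GLn)) : u ∈ B := (mem_utriGL.1 hu).1

/-- An element of `U` that becomes both upper and lower triangular after conjugating is trivial. -/
theorem eq_one_of_inter {u : GLn} (hu : u ∈ (utriGL : Subgroup GLn)) (w : Equiv.Perm (Fin n))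
    (h1 : (permGL w)⁻¹ * u * permGL w ∈ (lowTri : Subgroup GLn))
    (h2 : (permGL w)⁻¹ * u * permGL w ∈ B) : u = 1 := by
  refine Units.ext (Matrix.ext fun i j => ?_)
  rcases eq_or_ne i j with rfl | h
  · rw [diag_of_utriGL hu, Units.val_one, Matrix.one_apply_eq]
  · rw [Units.val_one, Matrix.one_apply_ne h]
    have e := permGL_conj_apply w u (w⁻¹ i) (w⁻¹ j)
    rw [show w (w⁻¹ i) = i from w.apply_symm_apply i, show w (w⁻¹ j) = j from w.apply_symm_apply j] at e
    rw [← e]
    have hne : w⁻¹ i ≠ w⁻¹ j := fun e => h (Equiv.injective (w⁻¹) e)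
    rcases lt_or_gt_of_ne hne with hl | hl
    · exact mem_lowTri.1 h1 _ _ hl
    · exact mem_upper.1 h2 _ _ hl

/-- Splitting of the unitriangular group by a permutation. -/
theorem exists_split (w : Equiv.Perm (Fin n)) {u : GLn} (hu : u ∈ (utriGL : Subgroup GLn)) :
    ∃ v ∈ (utriGL : Subgroup GLn), (permGL w)⁻¹ * v * permGL w ∈ (lowTri : Subgroup GLn) ∧
      ∃ v' : GLn, (permGL w)⁻¹ * v' * permGL w ∈ B ∧ u = v * v' := by
  classical
  let P := {p : Fin n × Fin n // p.1 < p.2}
  let E : (utri : Subgroup (SpecialLinearGroup (Fin n) F)) ≃ (P → F) := FusionPSL.utriEquiv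
  let ι : (utri : Subgroup (SpecialLinearGroup (Fin n) F)) →* GLn :=
    SpecialLinearGroup.toGL.comp (Subgroup.subtype _)
  have hι : Function.Injective ι := SpecialLinearGroup.toGL_injective.comp Subtype.val_injective
  have hE : ∀ A (p : P), E A p = (ι A : Mat) p.1.1 p.1.2 := fun A p => rfl
  have hιU : ∀ A, ι A ∈ (utriGL : Subgroup GLn) := fun A => Subgroup.mem_map_of_mem _ A.2
  let lo : (P → F) → (utri : Subgroup (SpecialLinearGroup (Fin n) F)) := fun f =>
    E.symm fun p => if w⁻¹ p.1.2 < w⁻¹ p.1.1 then f p else 0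
  let hi : (P → F) → (utri : Subgroup (SpecialLinearGroup (Fin n) F)) := fun f =>
    E.symm fun p => if w⁻¹ p.1.2 < w⁻¹ p.1.1 then 0 else f p
  have hlo : ∀ f, (permGL w)⁻¹ * ι (lo f) * permGL w ∈ (lowTri : Subgroup GLn) := by
    intro f
    refine mem_lowTri.2 fun i j hij => ?_
    rw [permGL_conj_apply]
    rcases lt_trichotomy (w i) (w j) with h | h | h
    · have := congrFun (E.apply_symm_apply (fun p : P => if w⁻¹ p.1.2 < w⁻¹ p.1.1 then f p else 0))
        ⟨(w i, w j), h⟩
      rw [hE, if_neg (by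
        show ¬ w⁻¹ (w j) < w⁻¹ (w i)
        rw [show w⁻¹ (w j) = j from w.symm_apply_apply j, show w⁻¹ (w i) = i from w.symm_apply_apply i]
        exact not_lt.2 hij.le)] at this
      exact this
    · exact absurd (w.injective h) hij.ne
    · exact mem_upper.1 (upper_of_utriGL (hιU _)) _ _ h
  have hhi : ∀ f, (permGL w)⁻¹ * ι (hi f) * permGL w ∈ B := by
    intro f
    refine mem_upper.2 fun i j hji => ?_
    rw [permGL_conj_apply]
    rcases lt_trichotomy (w i) (w j) with h | h | h
    · have := congrFun (E.apply_symm_apply (fun p : P => if w⁻¹ p.1.2 < w⁻¹ p.1.1 then 0 else f p))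
        ⟨(w i, w j), h⟩
      rw [hE, if_pos (by
        show w⁻¹ (w j) < w⁻¹ (w i)
        rw [show w⁻¹ (w j) = j from w.symm_apply_apply j, show w⁻¹ (w i) = i from w.symm_apply_apply i]
        exact hji)] at this
      exact this
    · exact absurd (w.injective h) hji.ne'
    · exact mem_upper.1 (upper_of_utriGL (hιU _)) _ _ h
  let Φ : (P → F) → (utri : Subgroup (SpecialLinearGroup (Fin n) F)) := fun f => lo f * hi f
  have hinj : Function.Injective Φ := by
    intro f g h
    have h0 : ι (lo f) * ι (hi f) = ι (lo g) * ι (hi g) := by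
      exact ((map_mul ι _ _).symm.trans (congrArg ι h)).trans (map_mul ι _ _)
    have hx : (ι (lo g))⁻¹ * ι (lo f) = ι (hi g) * (ι (hi f))⁻¹ :=
      inv_mul_eq_iff_eq_mul.2 (by rw [← mul_assoc, ← h0, mul_inv_cancel_right])
    have h1 : (ι (lo g))⁻¹ * ι (lo f) = 1 := eq_one_of_inter
      (mul_mem (inv_mem (hιU _)) (hιU _)) w (by
        rw [show (permGL w)⁻¹ * ((ι (lo g))⁻¹ * ι (lo f)) * permGL w =
          ((permGL w)⁻¹ * ι (lo g) * permGL w)⁻¹ * ((permGL w)⁻¹ * ι (lo f) * permGL w) by group]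
        exact mul_mem (inv_mem (hlo g)) (hlo f)) (by
        rw [hx, show (permGL w)⁻¹ * (ι (hi g) * (ι (hi f))⁻¹) * permGL w =
          ((permGL w)⁻¹ * ι (hi g) * permGL w) * ((permGL w)⁻¹ * ι (hi f) * permGL w)⁻¹ by group]
        exact mul_mem (hhi g) (inv_mem (hhi f)))
    have elo : lo g = lo f := hι (inv_mul_eq_one.1 h1)
    have ehi : hi g = hi f := hι (mul_inv_eq_one.1 (hx.symm.trans h1))
    funext p
    have a := congrFun (E.symm.injective elo) p
    have b := congrFun (E.symm.injective ehi) p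
    split_ifs at a b with hp
    · exact a.symm
    · exact b.symm
  haveI : Fintype (utri : Subgroup (SpecialLinearGroup (Fin n) F)) := Fintype.ofEquiv _ E.symm
  have hsurj : Function.Surjective Φ :=
    ((Fintype.bijective_iff_injective_and_card Φ).2 ⟨hinj, (Fintype.card_congr E).symm⟩).2
  obtain ⟨A, hA, rfl⟩ := hu
  obtain ⟨f, hf⟩ := hsurj ⟨A, hA⟩
  exact ⟨ι (lo f), hιU _, hlo f, ι (hi f), hhi f, by rw [← map_mul]; exact (congrArg ι hf).symm⟩

/-- The permutation of a Bruhat cell is unique. -/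
theorem perm_eq {w w' : Equiv.Perm (Fin n)} {u b : GLn} (hu : u ∈ (utriGL : Subgroup GLn))
    (hb : b ∈ B) (h : u * permGL w = permGL w' * b) : w = w' := by
  have hle : ∀ j, (w'⁻¹ * w) j ≤ j := by
    intro j
    by_contra hlt
    push Not at hlt
    have h' := congrFun (congrFun (congrArg (fun X : GLn => (X : Mat)) h) (w j)) j
    simp only [Units.val_mul, Matrix.mul_apply] at h'
    rw [Finset.sum_eq_single (w j), Finset.sum_eq_single ((w'⁻¹ * w) j)] at h'
    · rw [permGL_apply, permGL_apply, if_pos rfl, if_pos (show w j = w' ((w'⁻¹ * w) j) from (w'.apply_symm_apply (w j)).symm), mul_one,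
        one_mul, diag_of_utriGL hu, mem_upper.1 hb _ _ hlt] at h'
      exact one_ne_zero h'
    · intro k _ hk
      rw [permGL_apply, if_neg (fun e => hk (by rw [Equiv.Perm.mul_apply, e]; exact (w'.symm_apply_apply k).symm)),
        zero_mul]
    · simp
    · intro k _ hk; rw [permGL_apply, if_neg hk, mul_zero]
    · simp
  have key : ∀ k : ℕ, ∀ j : Fin n, (j : ℕ) = k → (w'⁻¹ * w) j = j := by
    intro k
    induction k using Nat.strong_induction_on with
    | _ k ih =>
      intro j hj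
      by_contra hne
      have hlt : (w'⁻¹ * w) j < j := lt_of_le_of_ne (hle j) hne
      have hlt' : ((w'⁻¹ * w) j : ℕ) < k := hj ▸ hlt
      exact hne ((w'⁻¹ * w).injective (ih _ hlt' _ rfl))
  exact (inv_mul_eq_one.1 (Equiv.ext fun j => key _ j rfl)).symm

open FusionClassical

variable {q : ℕ} (hK : Fintype.card F = q ^ 2)

local notation "D" => FusionClassical.Unitary.form hK n

/-- The adjoint on invertible matrices. -/
noncomputable def adjU (g : GLn) : GLn :=
  ⟨(D).adj (g : Mat), (D).adj ((g⁻¹ : GLn) : Mat),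
    by rw [← (D).adj_mul, Units.inv_mul, (D).adj_one], by rw [← (D).adj_mul, Units.mul_inv, (D).adj_one]⟩

theorem adjU_mul (a b : GLn) : adjU hK (a * b) = adjU hK b * adjU hK a :=
  Units.ext ((D).adj_mul _ _)

theorem adjU_inv (a : GLn) : adjU hK a⁻¹ = (adjU hK a)⁻¹ := Units.ext rfl

theorem adjU_apply (g : GLn) (i j : Fin n) :
    (adjU hK g : Mat) i j = Spec.Unitary.conjHom hK ((g : Mat) j.rev i.rev) := by
  show (D).adj (g : Mat) i j = _
  rw [Form.adj_apply]
  show (1 : F) * 1 * _ = _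
  rw [one_mul, one_mul]
  rfl

theorem adjU_upper {g : GLn} (hg : g ∈ B) : adjU hK g ∈ B := mem_upper.2 fun i j hji => by
  rw [adjU_apply, mem_upper.1 hg _ _ (Fin.rev_lt_rev.2 hji), map_zero]

theorem adjU_lower {g : GLn} (hg : g ∈ (lowTri : Subgroup GLn)) : adjU hK g ∈ (lowTri : Subgroup GLn) :=
  mem_lowTri.2 fun i j hij => by
  rw [adjU_apply, mem_lowTri.1 hg _ _ (Fin.rev_lt_rev.2 hij), map_zero]

theorem adjU_utri {g : GLn} (hg : g ∈ (utriGL : Subgroup GLn)) : adjU hK g ∈ (utriGL : Subgroup GLn) :=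
  mem_utriGL.2 ⟨adjU_upper hK (upper_of_utriGL hg), funext fun i => by
    show (adjU hK g : Mat) i i = 1
    rw [adjU_apply, diag_of_utriGL hg, map_one]⟩

theorem adjU_perm_inv (w : Equiv.Perm (Fin n)) :
    adjU hK (permGL w)⁻¹ = permGL (Fin.revPerm * w * Fin.revPerm) := by
  refine Units.ext (Matrix.ext fun i j => ?_)
  rw [adjU_apply, permGL_apply]
  have h : ((permGL (F := F) w)⁻¹ : GLn) = permGL w⁻¹ := inv_eq_of_mul_eq_one_right
    (Units.ext (Matrix.ext fun a b => by
      rw [Units.val_mul, Matrix.mul_apply, Finset.sum_eq_single (w⁻¹ b), permGL_apply, permGL_apply,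
        if_pos rfl, mul_one, show w (w⁻¹ b) = b from w.apply_symm_apply b, Units.val_one, Matrix.one_apply]
      · intro k _ hk; rw [permGL_apply (w := w⁻¹), if_neg hk, mul_zero]
      · simp))
  rw [h, permGL_apply, apply_ite (Spec.Unitary.conjHom hK), map_one, map_zero]
  refine if_congr ?_ rfl rfl
  simp only [Equiv.Perm.mul_apply, Fin.revPerm_apply]
  constructor
  · intro e
    have := congrArg w e
    rw [show w (w⁻¹ i.rev) = i.rev from w.apply_symm_apply _] at this
    rw [this, Fin.rev_rev]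
  · intro e
    subst e
    rw [Fin.rev_rev]
    exact (w.symm_apply_apply _).symm

/-- The embedding of the group of the form. -/
noncomputable def toGLn : (D).grp →* GLn := SpecialLinearGroup.toGL.comp (D).grp.subtype

theorem toGLn_injective : Function.Injective (toGLn (n := n) hK) :=
  SpecialLinearGroup.toGL_injective.comp Subtype.val_injective

theorem toGLn_val (x : (D).grp) : (toGLn hK x : Mat) = ((x : SpecialLinearGroup (Fin n) F) : Mat) := rfl

theorem adjU_toGLn (x : (D).grp) : adjU hK (toGLn hK x) = (toGLn hK x)⁻¹ := by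
  rw [← map_inv]
  exact Units.ext (Form.inv_val _ x).symm

theorem exists_toGLn {y : GLn} (hy : adjU hK y = y⁻¹) (hd : GeneralLinearGroup.det y = 1) :
    ∃ x : (D).grp, toGLn hK x = y := by
  refine ⟨⟨⟨(y : Mat), congrArg Units.val hd⟩, ?_⟩, Units.ext rfl⟩
  show (D).adj (y : Mat) * (y : Mat) = 1
  have := congrArg (fun X : GLn => (X : Mat) * (y : Mat)) hy
  exact this.trans (Units.inv_mul y)

theorem mem_uni_iff {x : (D).grp} : x ∈ (D).uni ↔ toGLn hK x ∈ (utriGL : Subgroup GLn) :=
  (Subgroup.mem_map_iff_mem (f := SpecialLinearGroup.toGL) SpecialLinearGroup.toGL_injective (K := (utri : Subgroup (SpecialLinearGroup (Fin n) F))) (x := (x : SpecialLinearGroup (Fin n) F))).symm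

/-- Normal form: an element of the unitary group is a unitary unitriangular element times an element
of a cell `w B`. -/
theorem exists_normal_form (x : (D).grp) :
    ∃ a : (D).grp, a ∈ (D).uni ∧ ∃ y : (D).grp, x = a * y ∧
      ∃ w : Equiv.Perm (Fin n), ∃ c ∈ B, toGLn hK y = permGL w * c := by
  set g := toGLn hK x with hg
  obtain ⟨b₁, hb₁, b₂, hb₂, w, hw⟩ := UnipGL.bruhat g
  set d : Fin n → F := diagHom ⟨b₁, hb₁⟩ with hd
  have hd0 : ∀ i, d i ≠ 0 := fun i h0 => by
    have h := congrFun (map_mul diagHom ⟨b₁, hb₁⟩ (⟨b₁, hb₁⟩ : Cfsg.upperTriangularGL n F)⁻¹) i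
    rw [mul_inv_cancel, map_one, Pi.mul_apply, ← hd, h0, zero_mul] at h
    exact one_ne_zero h
  set t := diagGL d hd0 with ht
  have hu : b₁ * t⁻¹ ∈ (utriGL : Subgroup GLn) := by
    refine mem_utriGL.2 ⟨mul_mem hb₁ (inv_mem (diagGL_mem d hd0)), ?_⟩
    show diagHom (⟨b₁, hb₁⟩ * (⟨t, diagGL_mem d hd0⟩ : Cfsg.upperTriangularGL n F)⁻¹) = 1
    have e : diagHom (⟨t, diagGL_mem d hd0⟩ : Cfsg.upperTriangularGL n F) = diagHom ⟨b₁, hb₁⟩ :=
      funext fun i => by
        show (diagonal d : Mat) i i = d i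
        rw [diagonal_apply_eq]
    rw [map_mul, ← e, ← map_mul, mul_inv_cancel, map_one]
  obtain ⟨v, hv, hvlow, v', hv', he⟩ := exists_split w hu
  set c := (permGL w)⁻¹ * v' * permGL w * diagGL (d ∘ w) (fun i => hd0 (w i)) * b₂ with hc
  have hcB : c ∈ B := mul_mem (mul_mem hv' (diagGL_mem _ _)) hb₂
  have hgf : g = v * permGL w * c := by
    rw [hw, show b₁ = (b₁ * t⁻¹) * t by group, he, mul_assoc (v * v') t, ht, diagGL_mul_permGL d hd0 w, hc]
    group
  have hgσ : g = adjU hK g⁻¹ := by rw [adjU_inv, hg, adjU_toGLn, inv_inv]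
  set v₁ := adjU hK v⁻¹ with hv₁
  set c₁ := adjU hK c⁻¹ with hc₁
  set w' := Fin.revPerm * w * Fin.revPerm with hw'
  have hgf' : g = v₁ * permGL w' * c₁ := by
    rw [hw', ← adjU_perm_inv hK, hv₁, hc₁, ← adjU_mul, ← adjU_mul]
    conv_lhs => rw [hgσ, hgf]
    simp only [_root_.mul_inv_rev, mul_assoc]
  have hv₁U : v₁ ∈ (utriGL : Subgroup GLn) := adjU_utri hK (inv_mem hv)
  have hc₁B : c₁ ∈ B := adjU_upper hK (inv_mem hcB)
  have hww : w = w' := by
    refine perm_eq (u := v₁⁻¹ * v) (b := c₁ * c⁻¹) (mul_mem (inv_mem hv₁U) hv)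
      (mul_mem hc₁B (inv_mem hcB)) ?_
    rw [show v₁⁻¹ * v * permGL w = v₁⁻¹ * (v * permGL w * c) * c⁻¹ by group, ← hgf, hgf']
    group
  have hvlow' : (permGL w)⁻¹ * v₁ * permGL w ∈ (lowTri : Subgroup GLn) := by
    have e : (permGL w)⁻¹ * v₁ * permGL w =
        adjU hK ((permGL w)⁻¹ * v⁻¹ * permGL w) := by
      have e1 : adjU hK (permGL w)⁻¹ = permGL w := by rw [adjU_perm_inv, ← hw', ← hww]
      have e2 : adjU hK (permGL w) = (permGL w)⁻¹ := inv_inj.1 (by rw [inv_inv, ← adjU_inv, e1])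
      rw [adjU_mul, adjU_mul, e1, e2, hv₁, mul_assoc]
    rw [e]
    refine adjU_lower hK ?_
    rw [show (permGL w)⁻¹ * v⁻¹ * permGL w = ((permGL w)⁻¹ * v * permGL w)⁻¹ by group]
    exact inv_mem hvlow
  have hv1 : v₁⁻¹ * v = 1 := eq_one_of_inter (mul_mem (inv_mem hv₁U) hv) w (by
      rw [show (permGL w)⁻¹ * (v₁⁻¹ * v) * permGL w =
        ((permGL w)⁻¹ * v₁ * permGL w)⁻¹ * ((permGL w)⁻¹ * v * permGL w) by group]
      exact mul_mem (inv_mem hvlow') hvlow) (by
      rw [← hww] at hgf'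
      rw [show (permGL w)⁻¹ * (v₁⁻¹ * v) * permGL w =
        (permGL w)⁻¹ * (v₁⁻¹ * (v * permGL w * c)) * c⁻¹ by group, ← hgf, hgf',
        show (permGL w)⁻¹ * (v₁⁻¹ * (v₁ * permGL w * c₁)) * c⁻¹ = c₁ * c⁻¹ by group]
      exact mul_mem hc₁B (inv_mem hcB))
  have hvσ : adjU hK v = v⁻¹ := by
    have e : v₁ = v := inv_mul_eq_one.1 hv1
    rw [hv₁, adjU_inv] at e
    conv_rhs => rw [← e, inv_inv]
  obtain ⟨a, ha⟩ := exists_toGLn hK hvσ (by
    obtain ⟨A, -, rfl⟩ := hv
    exact Units.ext A.2)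
  refine ⟨a, (mem_uni_iff hK).2 (ha ▸ hv), a⁻¹ * x, by group, w, c, hcB, ?_⟩
  rw [map_mul, map_inv, ha, ← hg, hgf]
  group

/-- The triangular elements of the unitary group. -/
noncomputable def borel : Subgroup (D).grp := (Cfsg.upperTriangularGL n F).comap (toGLn hK)

/-- Moving a triangular element across any element. -/
theorem exists_move {b : (D).grp} (hb : b ∈ borel hK) (h : (D).grp) :
    ∃ u ∈ (D).uni, ∃ e ∈ borel hK, b * h = u * h * e := by
  have hb' : toGLn hK b ∈ B := hb
  -- the diagonal part of `b` is unitary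
  set v : Fin n → F := diagHom ⟨toGLn hK b, hb'⟩ with hv
  have hinv : ∀ i, v i * Spec.Unitary.conjHom hK (v i.rev) = 1 := by
    intro i
    have hbi : adjU hK (toGLn hK b) ∈ B := adjU_upper hK hb'
    have h1 := congrFun (map_mul diagHom ⟨toGLn hK b, hb'⟩
      (⟨_, hbi⟩ : Cfsg.upperTriangularGL n F)) i
    rw [show (⟨toGLn hK b, hb'⟩ : Cfsg.upperTriangularGL n F) * ⟨_, hbi⟩ = 1 from
      Subtype.ext (by show toGLn hK b * adjU hK (toGLn hK b) = 1; rw [adjU_toGLn, mul_inv_cancel]),
      map_one, Pi.mul_apply] at h1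
    rw [show diagHom (⟨_, hbi⟩ : Cfsg.upperTriangularGL n F) i =
      Spec.Unitary.conjHom hK (v i.rev) from adjU_apply hK (toGLn hK b) i i] at h1
    exact h1.symm
  have hv0 : ∀ i, v i ≠ 0 := fun i h0 => by simpa [h0] using hinv i
  have hdet : (diagonal v : Mat).det = 1 := by
    rw [det_diagonal]
    have := Matrix.det_of_isUpperTriangular (M := ((b : SpecialLinearGroup (Fin n) F) : Mat))
      (fun i j hij => hb' hij)
    exact this.symm.trans (b : SpecialLinearGroup (Fin n) F).2
  obtain ⟨d, hd⟩ : ∃ d : (D).grp, toGLn hK d = diagGL v hv0 := by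
    refine exists_toGLn hK (eq_inv_of_mul_eq_one_left (Units.ext (Matrix.ext fun i j => ?_)))
      (Units.ext hdet)
    rw [Units.val_mul, diagGL_val, mul_diagonal, adjU_apply, diagGL_val, Units.val_one]
    by_cases hij : i = j
    · subst hij
      rw [diagonal_apply_eq, Matrix.one_apply_eq, mul_comm]
      exact hinv i
    · rw [diagonal_apply_ne _ (fun e => hij (Fin.rev_injective e).symm), map_zero, zero_mul,
        Matrix.one_apply_ne hij]
  have ha' : b * d⁻¹ ∈ (D).uni := by
    rw [mem_uni_iff, map_mul, map_inv, hd]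
    refine mem_utriGL.2 ⟨mul_mem hb' (inv_mem (diagGL_mem v hv0)), ?_⟩
    show diagHom (⟨_, hb'⟩ * (⟨diagGL v hv0, diagGL_mem v hv0⟩ : Cfsg.upperTriangularGL n F)⁻¹) = 1
    have e : diagHom (⟨diagGL v hv0, diagGL_mem v hv0⟩ : Cfsg.upperTriangularGL n F) =
        diagHom ⟨toGLn hK b, hb'⟩ := funext fun i => by
      show (diagonal v : Mat) i i = v i
      rw [diagonal_apply_eq]
    rw [map_mul, ← e, ← map_mul, mul_inv_cancel, map_one]
  obtain ⟨a, ha, y, rfl, w, c, hc, hy⟩ := exists_normal_form hK h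
  refine ⟨b * d⁻¹ * (d * a * d⁻¹ * a⁻¹), mul_mem ha' ?_, y⁻¹ * d * y, ?_, by group⟩
  · rw [mem_uni_iff, map_mul, map_mul, map_mul, map_inv, map_inv, hd]
    exact comm_mem_utriGL (diagGL_mem v hv0) (upper_of_utriGL ((mem_uni_iff hK).1 ha))
  · show toGLn hK (y⁻¹ * d * y) ∈ B
    rw [map_mul, map_mul, map_inv, hy, hd,
      show (permGL w * c)⁻¹ * diagGL v hv0 * (permGL w * c) =
        c⁻¹ * ((permGL w)⁻¹ * (diagGL v hv0 * permGL w)) * c by group,
      diagGL_mul_permGL, inv_mul_cancel_left]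
    exact mul_mem (mul_mem (inv_mem hc) (diagGL_mem _ _)) hc

include hK in
/-- Subgroups of odd index of `SU_n(2^f)` are pronormal. -/
theorem isPronormal_even (hn : 4 ≤ n) (hF : Even (Fintype.card F)) {H : Subgroup (Cfsg.SU n F q)}
    (hH : Odd H.index) : Cfsg.IsPronormal H := by
  haveI : Fact (Nat.Prime 2) := ⟨Nat.prime_two⟩
  haveI : CharP F 2 := by
    have hc : ringChar F = 2 := (FiniteField.even_card_iff_char_two).2 (Nat.even_iff.1 hF)
    exact hc ▸ ringChar.charP F
  obtain ⟨c, hc⟩ := FusionClassical.Unitary.exists_basis hK n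
  let π := FusionClassical.Unitary.toSU hK c hc
  have hπ : Function.Surjective π := FusionClassical.Unitary.toSU_surjective hK c hc
  refine PronormalPSL.isPronormal_of_comap π hπ ?_
  have hR := FusionClassical.Unitary.rich hK n hn
  let S : Sylow 2 (D).grp :=
    ⟨(D).uni, Form.isPGroup_uni 2, fun hQ hle => le_antisymm (Form.uni_maximal 2 hR hQ hle) hle⟩
  have hH' : Odd (H.comap π).index := by rwa [Subgroup.index_comap_of_surjective _ hπ]
  obtain ⟨P, hP⟩ := PronormalPSL.exists_sylow_le hH'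
  obtain ⟨a, ha⟩ := MulAction.exists_smul_eq (D).grp P S
  have hle : (S : Subgroup (D).grp) ≤ (H.comap π).map (MulAut.conj a).toMonoidHom := by
    rw [← ha, Sylow.coe_subgroup_smul]
    exact Subgroup.map_mono hP
  refine PronormalPSL.isPronormal_of_map_conj _ a
    (PronormalPSL.isPronormal_of_normalizer_le_normalizer S _ hle
      (normalizer_le_normalizer_of_decomposition S (borel hK) ?_ ?_ ?_
        (fun b hb h => exists_move hK hb h) hle))
  · intro g hg i j hij
    exact Form.upperTriangular_of_normalizes hR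
      (fun u hu => (Subgroup.mem_normalizer_iff.1 hg u).1 hu) i j hij
  · intro b hb s hs
    show b * s * b⁻¹ ∈ (D).uni
    rw [mem_uni_iff, map_mul, map_mul, map_inv]
    exact conj_mem_utriGL hb ((mem_uni_iff hK).1 hs)
  · intro b hb b' hb'
    show b * b' * b⁻¹ * b'⁻¹ ∈ (D).uni
    rw [mem_uni_iff, map_mul, map_mul, map_mul, map_inv, map_inv]
    exact comm_mem_utriGL hb hb'

end Cfsg.Agent.PronormalPSU
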